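import Cfsg.Agent.Depth.G.Calc

/-!
# Depth of alternating groups (S5768): the assembly (helper30)
-/

set_option autoImplicit false
set_option maxHeartbeats 200000

namespace Cfsg.Agent.Depth.G

open Subgroup

theorem red_pts (hP : GPoint) {m : ℕ} (hm : 5 ≤ m) (r : ℕ) : Red (Alt (m + r)) (Alt m) r := by
  induction r with
  | zero => exact Red.refl (MulEquiv.refl _)
  | succ r ih =>
    have h := (hP (m + r) (by omega)).trans ih
    rwa [add_comm 1 r] at h

theorem red_join (hS : GSplit) (h5 : GFive) {a b i j : ℕ} (ha : 5 ≤ a) (hb : 5 ≤ b) (hab : a ≠ b)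
    (h1 : Red (Alt a) (Alt 5) i) (h2 : Red (Alt b) (Alt 5) j) : Red (Alt (a + b)) (Alt 5) (i + j + 3) :=
  (((hS a b ha hb hab).trans (h1.prod h2)).trans h5.1).mono (by omega)

theorem red_sum (hS : GSplit) (hL : GLeaf) (h5 : GFive) (s : Finset ℕ) : s.Nonempty → (∀ p ∈ s, Good p) →
    Red (Alt (∑ p ∈ s, (p + 1))) (Alt 5) (5 * s.card - 3) := by
  induction s using Finset.induction_on_min with
  | empty => exact fun h => absurd h Finset.not_nonempty_empty
  | insert a s ha ih =>
    intro _ hg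
    have hn : a ∉ s := fun h => lt_irrefl a (ha a h)
    have ga := hg a (Finset.mem_insert_self a s)
    rw [Finset.sum_insert hn, Finset.card_insert_of_notMem hn]
    rcases s.eq_empty_or_nonempty with rfl | ⟨q, hq⟩
    · exact hL a ga
    · have h1 : q + 1 ≤ ∑ p ∈ s, (p + 1) := Finset.single_le_sum (f := fun p => p + 1) (fun _ _ => Nat.zero_le _) hq
      have h2 := ha q hq
      have h3 := ga.2.1
      have h4 : 0 < s.card := Finset.card_pos.2 ⟨q, hq⟩
      exact (red_join hS h5 (by omega) (by omega) (by omega) (hL a ga)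
        (ih ⟨q, hq⟩ fun p hp => hg p (Finset.mem_insert_of_mem hp))).mono (by omega)

theorem red_big (hB : Big) (hS : GSplit) (hL : GLeaf) (h5 : GFive) (hW : GWr) (hA : GAff) {N : ℕ} (hN : 10 ^ 22 ≤ N)
    (he : Even N) : Red (Alt N) PUnit 22 := by
  obtain ⟨l, p₂, p₃, p₄, hl, g₂, g₃, g₄, h1, rfl⟩ := hB N hN he
  have k₂ := g₂.2.1
  have k₃ := g₃.2.1
  have k₄ := g₄.2.1
  have kl := hl.2.2
  have hx : Red (Alt (l * (p₂ + 1))) (Alt 5) 9 :=
    ((hW l (p₂ + 1) (hl.1.odd_of_ne_two (by omega)) (by omega) (g₂.1.odd_of_ne_two (by omega)).add_one (by omega)).trans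
      (((hA l hl).prod_right).congr (MulEquiv.refl _) MulEquiv.prodUnique)).trans (hL p₂ g₂)
  have h2 : 5 ≤ l * (p₂ + 1) := by nlinarith
  generalize l * (p₂ + 1) = x at *
  by_cases h : p₃ = p₄
  · have h3 := red_join hS h5 (by omega) (by omega) (by omega)
      (red_join hS h5 h2 (by omega) (by omega) hx (hL p₃ g₃)) (hL p₄ g₄)
    exact h3.trans h5.2
  · have h3 := red_join hS h5 h2 (by omega) (by omega) hx
      (red_join hS h5 (by omega) (by omega) (by omega) (hL p₃ g₃) (hL p₄ g₄))
    rw [add_assoc]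
    exact h3.trans h5.2

/-- **the assembly** -/
theorem gAsm : GAsm := by
  intro hB hs hP hS hL h5 hW hA n
  have key : Red (Alt n) PUnit 23 := by
    rcases Nat.lt_or_ge n 5 with h1 | h1
    · refine Red.of_card_lt 23 _ ((card_le_card_group _).trans_lt ?_)
      rw [Nat.card_perm, Nat.card_fin]
      exact (Nat.factorial_le h1.le).trans_lt (by norm_num [Nat.factorial])
    rcases Nat.lt_or_ge n 20 with h2 | h2
    · obtain ⟨r, rfl⟩ := Nat.exists_eq_add_of_le h1
      exact ((red_pts hP le_rfl r).trans h5.2).mono (by omega)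
    rcases le_or_gt n (10 ^ 22 + 1) with h3 | h3
    · obtain ⟨ps, r, k1, k2, k3, k4, rfl⟩ := hs n h2 h3
      obtain ⟨q, hq⟩ := List.exists_mem_of_ne_nil ps k1
      have h4 := red_sum hS hL h5 ps.toFinset ⟨q, List.mem_toFinset.2 hq⟩ (fun p hp => k3 p (List.mem_toFinset.1 hp))
      rw [List.sum_toFinset _ k2, List.toFinset_card_of_nodup k2] at h4
      have h6 : 0 < ps.length := List.length_pos_of_mem hq
      have h7 : q + 1 ≤ (ps.map (· + 1)).sum := List.single_le_sum (fun _ _ => Nat.zero_le _) _ (List.mem_map_of_mem hq)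
      have h8 := (k3 q hq).2.1
      exact (((red_pts hP (by omega) r).trans h4).trans h5.2).mono (by omega)
    rcases Nat.even_or_odd n with h4 | h4
    · exact (red_big hB hS hL h5 hW hA (by omega) h4).mono (by norm_num)
    · obtain ⟨k, rfl⟩ := h4
      exact (hP (2 * k) (by omega)).trans (red_big hB hS hL h5 hW hA (by omega) (even_two_mul k))
  obtain ⟨t, c, k1, k2, ⟨e⟩, k4⟩ := key
  have : Subsingleton (c (Fin.last t)) := e.toEquiv.subsingleton
  exact ⟨t, c, k1, k2, eq_bot_of_subsingleton _, k4⟩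

end Cfsg.Agent.Depth.G
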