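import Cfsg.Agent.Depth.Defs

/-!
# Depth of alternating groups (S5768): the calculus of unrefinable chains (helper30)
-/

set_option autoImplicit false
set_option maxHeartbeats 200000

namespace Cfsg.Agent.Depth

open Subgroup

namespace G

section cov

variable {A B : Type*} [Group A] [Group B]

theorem covBy_map (f : A →* B) (hf : Function.Injective f) {X Y : Subgroup A} (h : X ⋖ Y) : X.map f ⋖ Y.map f := by
  refine ⟨lt_of_le_of_ne (map_mono h.le) (fun e => h.ne (map_injective hf e)), fun Z h1 h2 => ?_⟩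
  have e : (Z.comap f).map f = Z := map_comap_eq_self (h2.le.trans (map_le_range f Y))
  have k1 : X ≤ Z.comap f := map_le_iff_le_comap.1 h1.le
  have k2 : Z.comap f ≤ Y := by
    rw [← comap_map_eq_self_of_injective hf Y]
    exact comap_mono h2.le
  rcases h.eq_or_eq k1 k2 with k | k
  · exact h1.ne (by rw [← e, k])
  · exact h2.ne (by rw [← e, k])

theorem covBy_comap (f : A →* B) (hf : Function.Surjective f) {X Y : Subgroup B} (h : X ⋖ Y) :
    X.comap f ⋖ Y.comap f := by
  refine ⟨lt_of_le_of_ne (comap_mono h.le) (fun e => h.ne (comap_injective hf e)), fun Z h1 h2 => ?_⟩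
  have e : (Z.map f).comap f = Z := comap_map_eq_self ((ker_le_comap f X).trans h1.le)
  have k1 : X ≤ Z.map f := by
    rw [← map_comap_eq_self_of_surjective hf X]
    exact map_mono h1.le
  have k2 : Z.map f ≤ Y := map_le_iff_le_comap.2 h2.le
  rcases h.eq_or_eq k1 k2 with k | k
  · exact h1.ne (by rw [← e, k])
  · exact h2.ne (by rw [← e, k])

/-- a maximal subgroup of a subgroup -/
theorem isCoatom_subgroupOf {X Y : Subgroup A} (h : X ⋖ Y) : IsCoatom (X.subgroupOf Y) := by
  refine ⟨fun e => h.ne (le_antisymm h.le (subgroupOf_eq_top.1 e)), fun Z hZ => ?_⟩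
  have k1 : X ≤ Z.map Y.subtype := fun x hx => ⟨⟨x, h.le hx⟩, hZ.le hx, rfl⟩
  rcases h.eq_or_eq k1 (map_subtype_le Z) with k | k
  · exfalso
    refine hZ.not_ge fun z hz => ?_
    change (z : A) ∈ X
    rw [← k]
    exact ⟨z, hz, rfl⟩
  · rw [eq_top_iff]
    intro y _
    have hy : (y : A) ∈ Z.map Y.subtype := k.symm ▸ y.2
    obtain ⟨z, hz, e⟩ := hy
    exact (Subtype.ext e : z = y) ▸ hz

/-- a subgroup of prime index is maximal -/
theorem isCoatom_of_index_prime {M : Subgroup A} (h : M.index.Prime) : IsCoatom M := by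
  refine ⟨fun e => ?_, fun Z hZ => ?_⟩
  · rw [e, index_top] at h
    exact Nat.not_prime_one h
  · have h1 := relIndex_mul_index hZ.le
    rcases (Nat.dvd_prime h).1 (Dvd.intro_left _ h1) with k | k
    · exact index_eq_one.1 k
    · rw [k] at h1
      have h2 : M.relIndex Z = 1 := Nat.eq_of_mul_eq_mul_right h.pos (h1.trans (one_mul _).symm)
      exact absurd (relIndex_eq_one.1 h2) hZ.not_ge

end cov

end G

open G

variable {A B C A' B' : Type} [Group A] [Group B] [Group C] [Group A'] [Group B']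

/-- chains indexed by `ℕ` -/
theorem Red.iff_nat {k : ℕ} : Red A B k ↔ ∃ (t : ℕ) (c : ℕ → Subgroup A), t ≤ k ∧ c 0 = ⊤ ∧ Nonempty (c t ≃* B) ∧
    ∀ i < t, c (i + 1) ⋖ c i := by
  constructor
  · rintro ⟨t, c, h1, h2, h3, h4⟩
    refine ⟨t, fun i => if h : i < t + 1 then c ⟨i, h⟩ else ⊥, h1, ?_, ?_, fun i hi => ?_⟩
    · simp only [dif_pos (Nat.succ_pos t)]
      exact h2
    · obtain ⟨e⟩ := h3
      exact ⟨(MulEquiv.subgroupCongr (dif_pos (Nat.lt_succ_self t))).trans e⟩
    · simp only [dif_pos (Nat.succ_lt_succ hi), dif_pos (Nat.lt_succ_of_lt hi)]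
      exact h4 ⟨i, hi⟩
  · rintro ⟨t, c, h1, h2, h3, h4⟩
    exact ⟨t, fun i => c i, h1, h2, h3, fun i => h4 i i.2⟩

theorem Red.refl (e : A ≃* B) : Red A B 0 :=
  Red.iff_nat.2 ⟨0, fun _ => ⊤, le_rfl, rfl, ⟨topEquiv.trans e⟩, fun _ h => absurd h (Nat.not_lt_zero _)⟩

theorem Red.mono {k k' : ℕ} (h : Red A B k) (hk : k ≤ k') : Red A B k' := by
  obtain ⟨t, c, h1, h2⟩ := h
  exact ⟨t, c, h1.trans hk, h2⟩

theorem Red.trans {a b : ℕ} (h : Red A B a) (h' : Red B C b) : Red A C (a + b) := by
  obtain ⟨t, c, h1, h2, ⟨e⟩, h4⟩ := Red.iff_nat.1 h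
  obtain ⟨s, d, k1, k2, ⟨f⟩, k4⟩ := Red.iff_nat.1 h'
  let φ : B →* A := (c t).subtype.comp e.symm.toMonoidHom
  have hφ : Function.Injective φ := (c t).subtype_injective.comp e.symm.injective
  have h0 : (d 0).map φ = c t := by
    rw [k2, ← MonoidHom.range_eq_map, MonoidHom.range_comp, MonoidHom.range_eq_top.2 e.symm.surjective,
      ← MonoidHom.range_eq_map, range_subtype]
  have key : ∀ i, t ≤ i → (if i ≤ t then c i else (d (i - t)).map φ) = (d (i - t)).map φ := by
    intro i hi
    split_ifs with h5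
    · rw [le_antisymm h5 hi, Nat.sub_self, h0]
    · rfl
  refine Red.iff_nat.2 ⟨t + s, fun i => if i ≤ t then c i else (d (i - t)).map φ, Nat.add_le_add h1 k1, ?_, ?_,
    fun i hi => ?_⟩
  · simp only [if_pos (Nat.zero_le t)]
    exact h2
  · refine ⟨(MulEquiv.subgroupCongr ((key (t + s) (Nat.le_add_right t s)).trans ?_)).trans
      (((d s).equivMapOfInjective φ hφ).symm.trans f)⟩
    rw [Nat.add_sub_cancel_left]
  · by_cases h5 : i < t
    · simp only [if_pos h5.le, if_pos (Nat.succ_le_of_lt h5)]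
      exact h4 i h5
    · have h6 : t ≤ i := Nat.le_of_not_lt h5
      simp only [key i h6, key (i + 1) (Nat.le_succ_of_le h6)]
      rw [show i + 1 - t = i - t + 1 by omega]
      exact covBy_map φ hφ (k4 _ (by omega))

theorem Red.congr {k : ℕ} (h : Red A B k) (e : A ≃* A') (f : B ≃* B') : Red A' B' k := by
  have h1 := ((Red.refl e.symm).trans h).trans (Red.refl f)
  rwa [zero_add, add_zero] at h1

theorem Red.of_coatom {M : Subgroup A} (h : IsCoatom M) (e : M ≃* B) : Red A B 1 := by
  refine Red.iff_nat.2 ⟨1, fun i => if i = 0 then ⊤ else M, le_rfl, rfl, ⟨e⟩, fun i hi => ?_⟩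
  obtain rfl : i = 0 := by omega
  exact h.covBy_top

/-- `X` maximal in `Y` -/
theorem Red.of_covBy {X Y : Subgroup A} (h : X ⋖ Y) : Red Y X 1 :=
  Red.of_coatom (isCoatom_subgroupOf h) (subgroupOfEquivOfLe h.le)

/-- a subgroup of prime index -/
theorem Red.of_index {M : Subgroup A} (h : M.index.Prime) : Red A M 1 :=
  Red.of_coatom (isCoatom_of_index_prime h) (MulEquiv.refl M)

/-- a subgroup of prime index in a subgroup -/
theorem Red.of_relIndex {X Y : Subgroup A} (hXY : X ≤ Y) (h : (X.relIndex Y).Prime) : Red Y X 1 :=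
  Red.of_coatom (isCoatom_of_index_prime h) (subgroupOfEquivOfLe hXY)

/-- the image of an injective homomorphism is maximal -/
theorem Red.of_range (f : B →* A) (hf : Function.Injective f) (h : IsCoatom f.range) : Red A B 1 :=
  Red.of_coatom h (MonoidHom.ofInjective hf).symm

theorem Red.prod_left {k : ℕ} (h : Red A B k) : Red (A × C) (B × C) k := by
  obtain ⟨t, c, h1, h2, ⟨e⟩, h4⟩ := Red.iff_nat.1 h
  refine Red.iff_nat.2 ⟨t, fun i => (c i).prod ⊤, h1, ?_, ⟨(prodEquiv _ _).trans (e.prodCongr topEquiv)⟩,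
    fun i hi => ?_⟩
  · simp only [h2, top_prod_top]
  · simp only [prod_top]
    exact covBy_comap _ Prod.fst_surjective (h4 i hi)

theorem Red.prod_right {k : ℕ} (h : Red A B k) : Red (C × A) (C × B) k :=
  h.prod_left.congr MulEquiv.prodComm MulEquiv.prodComm

theorem Red.prod {a b : ℕ} (h : Red A A' a) (h' : Red B B' b) : Red (A × B) (A' × B') (a + b) :=
  h.prod_left.trans h'.prod_right

/-- a finite group of order `< 2 ^ (k + 1)` has an unrefinable chain of length `≤ k` -/
theorem Red.of_card_lt (k : ℕ) : ∀ (A : Type) [Group A] [Finite A], Nat.card A < 2 ^ (k + 1) → Red A PUnit k := by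
  induction k with
  | zero =>
    intro A _ _ h
    have : Subsingleton A := Finite.card_le_one_iff_subsingleton.1 (by omega)
    have : Unique A := uniqueOfSubsingleton 1
    exact Red.refl MulEquiv.ofUnique
  | succ k ih =>
    intro A _ _ h
    rcases eq_top_or_exists_le_coatom (⊥ : Subgroup A) with h1 | ⟨M, hM, -⟩
    · have : Subsingleton A := ⟨fun a b => by
        have ha : a ∈ (⊥ : Subgroup A) := h1 ▸ mem_top a
        have hb : b ∈ (⊥ : Subgroup A) := h1 ▸ mem_top b
        rw [mem_bot.1 ha, mem_bot.1 hb]⟩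
      have : Unique A := uniqueOfSubsingleton 1
      exact (Red.refl MulEquiv.ofUnique).mono (Nat.zero_le _)
    · have h2 := M.card_mul_index
      have h3 : 1 < M.index := one_lt_index_of_ne_top hM.1
      have h4 := (Red.of_coatom hM (MulEquiv.refl M)).trans (ih M (by rw [pow_succ] at h; nlinarith))
      rwa [add_comm] at h4

end Cfsg.Agent.Depth
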